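import Groth.Agent.Vancyc.H690.HensGen
import Groth.Agent.S0511
import Mathlib.RingTheory.Flat.EquationalCriterion
import Mathlib.RingTheory.Filtration

/-!
# Algebra of `A{x}`: the closed fibre is Noetherian, flat quotients
-/

set_option autoImplicit false
universe u v

namespace Groth.Agent.Lefpen.H701.JFAlg

open IsLocalRing Groth.Agent.Vancyc.H690.HensFree Groth.Agent.Vancyc.H690.HensPres
  Groth.Agent.Vancyc.H690.HensGen

section Fibre

variable {A R : Type u} [CommRing A] [IsLocalRing A] [CommRing R] [Algebra A R] {ι : Type v}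
  {x : ι → R}

/-- The closed fibre of `A{x}` is `k{x}`. -/
theorem isHensFree_quotient (h : IsHensFree A R x) (I : Ideal R)
    (hI : I = (maximalIdeal A).map (algebraMap A R)) [Algebra (ResidueField A) (R ⧸ I)]
    [IsScalarTower A (ResidueField A) (R ⧸ I)] :
    IsHensFree (ResidueField A) (R ⧸ I) (fun i => Ideal.Quotient.mk I (x i)) := by
  have h1 := h.henselian
  have h2 := h.isLocalHom
  have hIm : I ≤ maximalIdeal R := hI ▸
    ((local_hom_TFAE (algebraMap A R)).out 0 2 rfl rfl).mp inferInstance
  have h3 : HenselianLocalRing (R ⧸ I) := henselianLocalRing_quotient I hIm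
  have h4 : IsLocalHom (Ideal.Quotient.mk I) :=
    IsLocalHom.of_surjective _ Ideal.Quotient.mk_surjective
  have h9 : Nontrivial (R ⧸ I) := Ideal.Quotient.nontrivial_iff.mpr fun e =>
    (maximalIdeal.isMaximal R).ne_top (top_le_iff.mp (e ▸ hIm))
  have h10 : IsLocalHom (algebraMap (ResidueField A) (R ⧸ I)) := by
    refine ⟨fun c hc => isUnit_iff_ne_zero.mpr ?_⟩
    rintro rfl
    rw [map_zero] at hc
    exact not_isUnit_zero hc
  refine ⟨h3, h10, fun i hi => ?_, fun T _ _ _ _ t ht => ?_⟩
  · exact h.not_isUnit i ((isUnit_map_iff (Ideal.Quotient.mk I) (x i)).mp hi)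
  · let aT : Algebra A T := ((algebraMap (ResidueField A) T).comp (residue A)).toAlgebra
    have tw : IsScalarTower A (ResidueField A) T := IsScalarTower.of_algebraMap_eq fun _ => rfl
    have h5 : IsLocalHom (algebraMap A T) := by
      rw [IsScalarTower.algebraMap_eq A (ResidueField A) T]
      have : IsLocalHom (algebraMap A (ResidueField A)) := inferInstanceAs (IsLocalHom (residue A))
      exact RingHom.isLocalHom_comp _ _
    obtain ⟨φ, hφ, hφu⟩ := h.existsUnique T t ht
    have hker : ∀ z ∈ I, φ z = 0 := by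
      have : I ≤ RingHom.ker φ := by
        rw [hI, Ideal.map_le_iff_le_comap]
        intro a ha
        rw [Ideal.mem_comap, RingHom.mem_ker, AlgHom.commutes,
          IsScalarTower.algebraMap_apply A (ResidueField A) T]
        have h8 : algebraMap A (ResidueField A) a = 0 := (residue_eq_zero_iff a).mpr ha
        rw [h8, map_zero]
      exact fun z hz => this hz
    let ψ₀ : (R ⧸ I) →ₐ[A] T := Ideal.Quotient.liftₐ I φ hker
    have hcomm : ∀ (ψ : (R ⧸ I) →ₐ[A] T) (c : ResidueField A),
        ψ (algebraMap (ResidueField A) (R ⧸ I) c) = algebraMap (ResidueField A) T c := by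
      intro ψ c
      obtain ⟨c, rfl⟩ := residue_surjective c
      have e1 : algebraMap (ResidueField A) (R ⧸ I) (residue A c) = algebraMap A (R ⧸ I) c :=
        (IsScalarTower.algebraMap_apply A (ResidueField A) (R ⧸ I) c).symm
      have e2 : algebraMap (ResidueField A) T (residue A c) = algebraMap A T c :=
        (IsScalarTower.algebraMap_apply A (ResidueField A) T c).symm
      rw [e1, e2, AlgHom.commutes]
    let ψ : (R ⧸ I) →ₐ[ResidueField A] T := { (ψ₀ : (R ⧸ I) →+* T) with
      commutes' := hcomm ψ₀ }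
    refine ⟨ψ, fun i => hφ i, fun χ hχ => ?_⟩
    have h6 : (χ.restrictScalars A).comp (Ideal.Quotient.mkₐ A I) = φ := hφu _ fun i => hχ i
    ext z
    obtain ⟨z, rfl⟩ := Ideal.Quotient.mk_surjective z
    have h7 := congr($h6 z)
    exact h7

/-- The closed fibre of `A{x}` is Noetherian. -/
theorem isNoetherianRing_quotient {ι : Type} [Finite ι] {x : ι → R} (h : IsHensFree A R x) :
    IsNoetherianRing (R ⧸ (maximalIdeal A).map (algebraMap A R)) := by
  set I := (maximalIdeal A).map (algebraMap A R) with hI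
  let a1 : Algebra (ResidueField A) (R ⧸ I) :=
    (Ideal.Quotient.lift (maximalIdeal A) ((Ideal.Quotient.mk I).comp (algebraMap A R)) (by
      intro a ha
      rw [RingHom.comp_apply, Ideal.Quotient.eq_zero_iff_mem]
      exact Ideal.mem_map_of_mem _ ha) : ResidueField A →+* R ⧸ I).toAlgebra
  have a2 : IsScalarTower A (ResidueField A) (R ⧸ I) := IsScalarTower.of_algebraMap_eq fun _ => rfl
  have h1 := isHensFree_quotient h I rfl
  obtain ⟨S, _, _, _, _, hS, -⟩ :=
    Groth.Agent.Hensel.Exist.exists_isHenselization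
      (Localization.AtPrime (orig (ResidueField A) ι))
  let _ : Algebra (ResidueField A) S :=
    ((algebraMap (Localization.AtPrime (orig (ResidueField A) ι)) S).comp
    (algebraMap (ResidueField A) (Localization.AtPrime (orig (ResidueField A) ι)))).toAlgebra
  have : IsScalarTower (ResidueField A) (Localization.AtPrime (orig (ResidueField A) ι)) S :=
    IsScalarTower.of_algebraMap_eq fun _ => rfl
  have h' := isHensFree_of_isHenselization (ResidueField A) ι S
  obtain ⟨e, -⟩ := exists_algEquiv h' h1
  have hN : IsNoetherianRing (MvPolynomial ι (ResidueField A)) := inferInstance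
  have hN1 : IsNoetherianRing (Localization.AtPrime (orig (ResidueField A) ι)) :=
    IsLocalization.isNoetherianRing (orig (ResidueField A) ι).primeCompl _ hN
  have hN2 : IsNoetherianRing S :=
    (Groth.Agent.S0511.result (Localization.AtPrime (orig (ResidueField A) ι)) S).mp hN1
  exact isNoetherianRing_of_ringEquiv S e.toRingEquiv

end Fibre

section Flat

variable {A R : Type u} [CommRing A] [CommRing R] [Algebra A R]

/-- If `R/J` is flat over `A` then `J ∩ I R = I J`. -/
theorem inf_map_le (J : Ideal R) [Module.Flat A (R ⧸ J)] (I : Ideal A) :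
    J ⊓ I.map (algebraMap A R) ≤ I.map (algebraMap A R) * J := by
  intro w hw
  obtain ⟨hwJ, hwI⟩ := hw
  -- write `w = ∑ a i * r i`
  obtain ⟨n, a, r, ha, rfl⟩ : ∃ (n : ℕ) (a : Fin n → A) (r : Fin n → R),
      (∀ i, a i ∈ I) ∧ w = ∑ i, algebraMap A R (a i) * r i := by
    rw [Ideal.map, SetLike.mem_coe, Submodule.mem_span_set'] at hwI
    obtain ⟨n, c, s, rfl⟩ := hwI
    have hs : ∀ i, ∃ a ∈ I, algebraMap A R a = (s i : R) := fun i => (s i).2
    choose a ha ha' using hs
    refine ⟨n, a, c, ha, ?_⟩
    refine Finset.sum_congr rfl fun i _ => ?_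
    rw [ha', smul_eq_mul, mul_comm]
  have h1 : ∑ i, a i • (Ideal.Quotient.mk J (r i)) = 0 := by
    have h2 : Ideal.Quotient.mk J (∑ i, algebraMap A R (a i) * r i) = 0 :=
      Ideal.Quotient.eq_zero_iff_mem.mpr hwJ
    rw [map_sum] at h2
    rw [← h2]
    refine Finset.sum_congr rfl fun i _ => ?_
    rw [map_mul, Algebra.smul_def]
    rfl
  have h3 := Module.Flat.isTrivialRelation_of_sum_smul_eq_zero h1
  obtain ⟨m, b, y, hb, hab⟩ := h3
  have hy : ∀ j, ∃ y' : R, Ideal.Quotient.mk J y' = y j := fun j => Ideal.Quotient.mk_surjective _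
  choose y' hy' using hy
  have h4 : ∀ i, r i - ∑ j, algebraMap A R (b i j) * y' j ∈ J := by
    intro i
    have hbi : Ideal.Quotient.mk J (r i) = ∑ j, b i j • y j := hb i
    rw [← Ideal.Quotient.eq_zero_iff_mem, map_sub, map_sum, hbi, sub_eq_zero]
    refine Finset.sum_congr rfl fun j _ => ?_
    rw [map_mul, hy', Algebra.smul_def]
    rfl
  have h5 : ∑ i, algebraMap A R (a i) * r i =
      ∑ i, algebraMap A R (a i) * (r i - ∑ j, algebraMap A R (b i j) * y' j) := by
    have h6 : ∑ i, algebraMap A R (a i) * ∑ j, algebraMap A R (b i j) * y' j = 0 := by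
      simp_rw [Finset.mul_sum]
      rw [Finset.sum_comm]
      refine Finset.sum_eq_zero fun j _ => ?_
      have h7 : ∑ i, algebraMap A R (a i) * (algebraMap A R (b i j) * y' j) =
          algebraMap A R (∑ i, a i * b i j) * y' j := by
        rw [map_sum, Finset.sum_mul]
        refine Finset.sum_congr rfl fun i _ => ?_
        rw [map_mul, mul_assoc]
      rw [h7, hab, map_zero, zero_mul]
    simp_rw [mul_sub]
    rw [Finset.sum_sub_distrib, h6, sub_zero]
  rw [h5]
  exact Ideal.sum_mem _ fun i _ => Ideal.mul_mem_mul (Ideal.mem_map_of_mem _ (ha i)) (h4 i)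

end Flat

end Groth.Agent.Lefpen.H701.JFAlg
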